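import Cfsg.Agent.H450.UF.Four

/-!
# Stabilisers of anisotropic points have rank at least four (helper450, for helper449, S2196)

`four_le_aniso` : `q ≥ 3`, `K` the stabiliser of `x₀ ∈ X` in `SIso B`, `u` anisotropic and `K` leaves `⟨u⟩` invariant: then
`K` has at least four orbits on `X`.
-/

set_option autoImplicit false
set_option linter.unusedSectionVars false

namespace Cfsg.Agent.H450.UF

open Module Cfsg.Agent.H91.U
open Cfsg.Agent.ClassicalGeometry.HermWitt (norm_surj exists_unit_perp)

variable {F V : Type*} [Field F] [AddCommGroup V] [Module F V] {σ : F →+* F} {B : V →ₛₗ[σ] V →ₗ[F] F}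

/-- an element of norm different from `0` and `1` -/
theorem exists_norm_ne [Fintype F] {q : ℕ} (hF : Fintype.card F = q ^ 2) (hq : 3 ≤ q) (hs : ∀ x, σ x = x ^ q) :
    ∃ α : F, α ≠ 0 ∧ α * σ α ≠ 1 := by
  by_contra hcon
  push Not at hcon
  have h1 : ∀ x : Fˣ, x ^ (q + 1) = 1 := by
    intro x
    apply Units.ext
    rw [Units.val_pow_eq_pow_val, Units.val_one, pow_succ', ← hs]
    exact hcon x x.ne_zero
  have h2 := (FiniteField.forall_pow_eq_one_iff (K := F) (q + 1)).1 h1
  rw [hF] at h2
  have h3 := Nat.le_of_dvd (by omega) h2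
  have h4 : q ^ 2 = q * q := sq q
  have h5 : 3 * q ≤ q * q := Nat.mul_le_mul_right q hq
  omega

/-- vectors of given norm orthogonal to an anisotropic vector -/
theorem exists_norm_perp [Finite F] [FiniteDimensional F V] (hB : HForm B) (hn : 2 ≤ finrank F V) {u : V}
    (hu : B u u ≠ 0) {b : F} (hb : σ b = b) (hb0 : b ≠ 0) : ∃ w, B w u = 0 ∧ B w w = b := by
  have hX : ∀ x ∈ Submodule.span F {u}, (∀ y ∈ Submodule.span F {u}, B x y = 0) → x = 0 := by
    intro x hx h
    obtain ⟨c, rfl⟩ := Submodule.mem_span_singleton.1 hx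
    have h1 := h u (Submodule.mem_span_singleton_self u)
    rw [smul_left, mul_eq_zero, map_eq_zero] at h1
    rw [h1.resolve_right hu, zero_smul]
  have hne : Submodule.span F {u} ≠ ⊤ := by
    intro e
    have h1 : finrank F (Submodule.span F {u}) ≤ 1 := by
      refine (finrank_span_le_card (R := F) ({u} : Set V)).trans ?_
      simp
    rw [e, finrank_top] at h1
    omega
  obtain ⟨v, -, hv, hvv⟩ := exists_unit_perp σ B hB.ne_id hB.invol hB.symm hB.nd.1 _ hX hne
  obtain ⟨c, -, hc⟩ := norm_surj σ hB.ne_id hB.invol b hb hb0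
  refine ⟨c • v, ?_, ?_⟩
  · rw [smul_left, hv u (Submodule.mem_span_singleton_self u), mul_zero]
  · rw [smul_left, smul_right, hvv, mul_one, mul_comm, hc]

/-- **stabilisers of anisotropic points have rank at least four** -/
theorem four_le_aniso [Fintype F] [FiniteDimensional F V] {q : ℕ} (hF : Fintype.card F = q ^ 2) (hB : HForm B)
    (hn : 6 ≤ finrank F V) (hq : 3 ≤ q) {X : Type*} [Finite X] [MulAction (SIso B) X] (x₀ : X) {u : V} (hu : B u u ≠ 0)
    (h : ∀ g ∈ MulAction.stabilizer (SIso B) x₀, ∃ c : F, g • u = c • u) :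
    4 ≤ Nat.card (MulAction.orbitRel.Quotient (MulAction.stabilizer (SIso B) x₀) X) := by
  classical
  have hs : ∀ x, σ x = x ^ q := sig_eq hF hB.ne_id hB.invol
  set a := B u u with ha
  have hsa : σ a = a := self_fix hB u
  have hu0 : u ≠ 0 := by
    rintro rfl
    apply hu
    rw [ha, map_zero]
  obtain ⟨α, hα0, hα1⟩ := exists_norm_ne hF hq hs
  have hsα : σ (α * σ α) = α * σ α := by rw [map_mul, hB.invol, mul_comm]
  obtain ⟨w₁, hw₁, hw₁n⟩ := exists_norm_perp hB (by omega) hu hsa hu
  obtain ⟨w₂, hw₂, hw₂n⟩ := exists_norm_perp hB (by omega) hu (b := a * (1 - α * σ α))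
    (by rw [map_mul, map_sub, map_one, hsα, hsa]) (mul_ne_zero hu (sub_ne_zero.2 (Ne.symm hα1)))
  obtain ⟨w₃, hw₃0, hw₃n, hw₃⟩ := exists_iso_orth hB (fun _ : Unit => u) (by rw [Fintype.card_unit]; omega)
  have hw₃' : B w₃ u = 0 := hB.swap_zero (hw₃ ())
  -- the four vectors
  let al : Fin 4 → F := ![1, 0, α, 1]
  let w : Fin 4 → V := ![0, w₁, w₂, w₃]
  have hwu : ∀ i, B (w i) u = 0 := by
    intro i
    fin_cases i
    · exact (congrArg (fun f : V →ₗ[F] F => f u) (map_zero B) : B 0 u = 0)
    · exact hw₁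
    · exact hw₂
    · exact hw₃'
  have huw : ∀ i, B u (w i) = 0 := fun i => hB.swap_zero (hwu i)
  have hww : ∀ i, B (w i) (w i) = a * (1 - al i * σ (al i)) := by
    intro i
    fin_cases i
    · change B 0 (0 : V) = a * (1 - 1 * σ 1)
      rw [map_zero, map_one]
      ring
    · change B w₁ w₁ = a * (1 - 0 * σ 0)
      rw [hw₁n, zero_mul, sub_zero, mul_one]
    · exact hw₂n
    · change B w₃ w₃ = a * (1 - 1 * σ 1)
      rw [hw₃n, map_one]
      ring
  let v : Fin 4 → V := fun i => al i • u + w i
  have hvv : ∀ i, B (v i) (v i) = a := by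
    intro i
    change B (al i • u + w i) (al i • u + w i) = a
    simp only [map_add, LinearMap.add_apply, smul_left, smul_right, hwu, huw, hww, ← ha]
    ring
  have huv : ∀ i, B u (v i) = al i * a := by
    intro i
    change B u (al i • u + w i) = al i * a
    rw [map_add, smul_right, huw, add_zero]
  have hv0 : ∀ i, v i ≠ 0 := by
    intro i e
    have := hvv i
    rw [e, map_zero] at this
    exact hu this.symm
  choose g hg using fun i : Fin 4 => exists_vec_map hB (by omega) hu0 (hv0 i) (ha.symm.trans (hvv i).symm)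
  -- the invariant
  have hinv : ∀ (k : SIso B) (c c' : F) (i l : Fin 4), k • u = c' • u → k • v l = c • v i →
      al i * σ (al i) = al l * σ (al l) ∧ (w i = 0 → w l = 0) := by
    intro k c c' i l h1 h2
    have hc : c * σ c = 1 := by
      have h3 := B_smul k (v l) (v l)
      rw [h2, smul_left, smul_right, hvv, hvv] at h3
      have h4 : (c * σ c) * a = 1 * a := by linear_combination h3
      exact mul_right_cancel₀ hu h4
    have hc' : c' * σ c' = 1 := by
      have h3 := B_smul k u u
      rw [h1, smul_left, smul_right, ← ha] at h3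
      have h4 : (c' * σ c') * a = 1 * a := by linear_combination h3
      exact mul_right_cancel₀ hu h4
    have h5 : σ c' * c * al i = al l := by
      have h3 := B_smul k u (v l)
      rw [h1, h2, smul_left, smul_right, huv, huv] at h3
      have h4 : (σ c' * c * al i) * a = al l * a := by linear_combination h3
      exact mul_right_cancel₀ hu h4
    refine ⟨?_, fun hw => ?_⟩
    · rw [← h5]
      simp only [map_mul, hB.invol]
      linear_combination (-(al i * σ (al i)) * (c * σ c)) * hc' - (al i * σ (al i)) * hc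
    · -- `v i` is a multiple of `u`, so is `v l`
      have h6 : k • v l = (c * al i) • u := by
        rw [h2]
        change c • (al i • u + w i) = _
        rw [hw, add_zero, smul_smul]
      have hc'0 : c' ≠ 0 := by
        rintro rfl
        rw [zero_mul] at hc'
        exact zero_ne_one hc'
      have h7 : k • v l = k • ((c * al i * c'⁻¹) • u) := by
        have h8 : k • ((c * al i * c'⁻¹) • u) = (c * al i * c'⁻¹) • (k • u) := map_smul k.1 _ u
        rw [h8, h1, smul_smul, mul_assoc, inv_mul_cancel₀ hc'0, mul_one, h6]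
      have h9 : v l = (c * al i * c'⁻¹) • u := k.1.injective h7
      have h10 : w l = (c * al i * c'⁻¹ - al l) • u := by
        rw [sub_smul, ← h9]
        change w l = al l • u + w l - al l • u
        rw [add_sub_cancel_left]
      have h11 := hwu l
      rw [h10, smul_left, mul_eq_zero, map_eq_zero] at h11
      rw [h10, h11.resolve_right hu, zero_smul]
  have : Finite (MulAction.orbitRel.Quotient (MulAction.stabilizer (SIso B) x₀) X) := Quotient.finite _
  let f : Fin 4 → MulAction.orbitRel.Quotient (MulAction.stabilizer (SIso B) x₀) X := fun i => Quotient.mk'' (g i • x₀)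
  have hf : Function.Injective f := by
    intro i l e
    have h1 : g i • x₀ ∈ MulAction.orbit (MulAction.stabilizer (SIso B) x₀) (g l • x₀) := Quotient.exact' e
    obtain ⟨⟨k, hk⟩, h2⟩ := h1
    have h4 : k • g l • x₀ = g i • x₀ := h2
    have h5 : (g i)⁻¹ * (k * g l) ∈ MulAction.stabilizer (SIso B) x₀ := by
      rw [MulAction.mem_stabilizer_iff, mul_smul, mul_smul, h4, inv_smul_smul]
    obtain ⟨c, hc⟩ := h _ h5
    obtain ⟨c', hc'⟩ := h k hk
    have h6 : k • v l = c • v i := by
      have h7 : g i • ((g i)⁻¹ * (k * g l)) • u = g i • (c • u) := by rw [hc]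
      rw [mul_smul, smul_inv_smul, mul_smul, hg l] at h7
      rw [h7]
      have h8 : g i • (c • u) = c • (g i • u) := map_smul (g i).1 c u
      rw [h8, hg i]
    have h7 : k⁻¹ • v i = c⁻¹ • v l := by
      have hc0 : c ≠ 0 := by
        rintro rfl
        rw [zero_smul] at h6
        exact hv0 l ((smul_eq_zero_iff_eq k).1 h6)
      have h8 : k⁻¹ • (k • v l) = k⁻¹ • (c • v i) := by rw [h6]
      rw [inv_smul_smul] at h8
      have h9 : k⁻¹ • (c • v i) = c • (k⁻¹ • v i) := map_smul k⁻¹.1 c (v i)
      rw [h8, h9, smul_smul, inv_mul_cancel₀ hc0, one_smul]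
    have h8 : k⁻¹ • u = c'⁻¹ • u := by
      have hc0 : c' ≠ 0 := by
        rintro rfl
        rw [zero_smul] at hc'
        exact hu0 ((smul_eq_zero_iff_eq k).1 hc')
      have h9 : k⁻¹ • (k • u) = k⁻¹ • (c' • u) := by rw [hc']
      rw [inv_smul_smul] at h9
      have h10 : k⁻¹ • (c' • u) = c' • (k⁻¹ • u) := map_smul k⁻¹.1 c' u
      rw [h10] at h9
      conv_rhs => rw [h9]
      rw [smul_smul, inv_mul_cancel₀ hc0, one_smul]
    obtain ⟨h9, h10⟩ := hinv k c c' i l hc' h6
    obtain ⟨-, h11⟩ := hinv k⁻¹ c⁻¹ c'⁻¹ l i h8 h7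
    have hw₁0 : w₁ ≠ 0 := by
      rintro rfl
      rw [map_zero] at hw₁n
      exact hu hw₁n.symm
    have h1σ : (1 : F) * σ 1 = 1 := by rw [map_one, mul_one]
    have hασ : α * σ α ≠ 0 := mul_ne_zero hα0 (sig_ne_zero hα0)
    fin_cases i <;> fin_cases l
    · rfl
    · exfalso
      change (1 : F) * σ 1 = 0 * σ 0 at h9
      rw [h1σ, zero_mul] at h9
      exact one_ne_zero h9
    · exfalso
      change (1 : F) * σ 1 = α * σ α at h9
      rw [h1σ] at h9
      exact hα1 h9.symm
    · exact absurd (h10 rfl) hw₃0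
    · exfalso
      change (0 : F) * σ 0 = 1 * σ 1 at h9
      rw [h1σ, zero_mul] at h9
      exact zero_ne_one h9
    · rfl
    · exfalso
      change (0 : F) * σ 0 = α * σ α at h9
      rw [zero_mul] at h9
      exact hασ h9.symm
    · exfalso
      change (0 : F) * σ 0 = 1 * σ 1 at h9
      rw [h1σ, zero_mul] at h9
      exact zero_ne_one h9
    · exfalso
      change α * σ α = 1 * σ 1 at h9
      rw [h1σ] at h9
      exact hα1 h9
    · exfalso
      change α * σ α = 0 * σ 0 at h9
      rw [zero_mul] at h9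
      exact hασ h9
    · rfl
    · exfalso
      change α * σ α = 1 * σ 1 at h9
      rw [h1σ] at h9
      exact hα1 h9
    · exact absurd (h11 rfl) hw₃0
    · exfalso
      change (1 : F) * σ 1 = 0 * σ 0 at h9
      rw [h1σ, zero_mul] at h9
      exact one_ne_zero h9
    · exfalso
      change (1 : F) * σ 1 = α * σ α at h9
      rw [h1σ] at h9
      exact hα1 h9.symm
    · rfl
  have h1 := Nat.card_le_card_of_injective f hf
  rwa [Nat.card_eq_fintype_card (α := Fin 4), Fintype.card_fin] at h1

end Cfsg.Agent.H450.UF
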