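import Cfsg.Agent.H450.UF.Geo

/-!
# No ovoids in Hermitian spaces of odd dimension (helper450, for helper449, S2196)

`no_ovoid` : there is no set `O` of nonzero vectors, closed under nonzero scalars, with `|O| = (q² - 1) (q^n + 1)` and
`|z^⊥ ∩ O| = q² - 1` for `z ∈ O` (`n ≥ 5`).
-/

set_option autoImplicit false
set_option linter.unusedSectionVars false

namespace Cfsg.Agent.H450.UF.Ovoid

open Module Cfsg.Agent.H91.U Cfsg.Agent.H450.UF

variable {F V : Type*} [Field F] [Fintype F] [AddCommGroup V] [Module F V] [FiniteDimensional F V] [Fintype V]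
  {σ : F →+* F} {B : V →ₛₗ[σ] V →ₗ[F] F}

variable (B) in
open Classical in
/-- the number of vectors of `O` orthogonal to `z` -/
noncomputable def N (O : Set V) (z : V) : ℤ := ∑ v : V, if v ∈ O ∧ B v z = 0 then 1 else 0

theorem card_sub (C : Submodule F V) : Nat.card C = Fintype.card F ^ finrank F C := by
  rw [Module.natCard_eq_pow_finrank (K := F), Nat.card_eq_fintype_card]

theorem finrank_sup_span {C : Submodule F V} {v : V} (hv : v ∉ C) :
    finrank F (C ⊔ Submodule.span F {v} : Submodule F V) = finrank F C + 1 := by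
  have h4 : C ⊓ Submodule.span F {v} = ⊥ := by
    rw [eq_bot_iff]
    rintro x ⟨hx1, hx2⟩
    obtain ⟨c, rfl⟩ := Submodule.mem_span_singleton.1 hx2
    by_cases hc : c = 0
    · rw [hc, zero_smul]; exact Submodule.zero_mem _
    · exact absurd ((Submodule.smul_mem_iff _ hc).1 hx1) hv
  have hz0 : v ≠ 0 := fun e => hv (e ▸ C.zero_mem)
  have h5 := Submodule.finrank_sup_add_finrank_inf_eq C (Submodule.span F {v})
  rw [h4, finrank_bot, finrank_span_singleton hz0] at h5
  omega

theorem ncard_eq_sum (O : Set V) [DecidablePred (· ∈ O)] : (O.ncard : ℤ) = ∑ v : V, if v ∈ O then (1 : ℤ) else 0 := by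
  rw [← Finset.sum_filter, Finset.sum_const, nsmul_eq_mul, mul_one, ← Nat.card_coe_set_eq, Nat.card_eq_fintype_card,
    ← Fintype.card_subtype]

/-- **double counting** -/
theorem sum_N (hB : HForm B) (O : Set V) (C : Submodule F V) {n d : ℕ} (hn : finrank F V = n) (hd : finrank F C = d)
    (hdn : d < n) [DecidablePred (· ∈ perp B C)] :
    (∑ z : V, if z ∈ perp B C then N B O z else 0) =
      (((C : Set V) ∩ O).ncard : ℤ) * (Fintype.card F : ℤ) ^ (n - d) +
        ((O.ncard : ℤ) - (((C : Set V) ∩ O).ncard : ℤ)) * (Fintype.card F : ℤ) ^ (n - d - 1) := by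
  classical
  -- the cardinalities
  have hcard : ∀ v : V, (∑ z : V, if z ∈ perp B C ∧ B v z = 0 then (1 : ℤ) else 0) =
      (if v ∈ C then (Fintype.card F : ℤ) ^ (n - d) else (Fintype.card F : ℤ) ^ (n - d - 1)) := by
    intro v
    have h1 : (∑ z : V, if z ∈ perp B C ∧ B v z = 0 then (1 : ℤ) else 0) =
        (Nat.card (perp B (C ⊔ Submodule.span F {v})) : ℤ) := by
      have h2 : ∀ z : V, (z ∈ perp B C ∧ B v z = 0) ↔ z ∈ ((perp B (C ⊔ Submodule.span F {v}) : Submodule F V) : Set V) := by
        intro z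
        constructor
        · rintro ⟨h3, h4⟩ w hw
          obtain ⟨a, ha, b, hb, rfl⟩ := Submodule.mem_sup.1 hw
          obtain ⟨c, rfl⟩ := Submodule.mem_span_singleton.1 hb
          rw [map_add, h3 a ha, smul_right, hB.swap_zero h4, mul_zero, add_zero]
        · intro h
          exact ⟨fun w hw => h w (Submodule.mem_sup_left hw),
            hB.swap_zero (h v (Submodule.mem_sup_right (Submodule.mem_span_singleton_self v)))⟩
      simp only [h2]
      rw [← ncard_eq_sum]
      norm_cast
    rw [h1, card_sub]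
    have h5 := finrank_perp hB (C ⊔ Submodule.span F {v})
    split_ifs with hv
    · have h6 : C ⊔ Submodule.span F {v} = C := by
        rw [sup_eq_left, Submodule.span_le]
        rintro _ rfl
        exact hv
      rw [h6] at h5 ⊢
      have h7 : finrank F (perp B C) = n - d := by omega
      rw [h7]
      push_cast
      rfl
    · rw [finrank_sup_span hv] at h5
      have h7 : finrank F (perp B (C ⊔ Submodule.span F {v})) = n - d - 1 := by omega
      rw [h7]
      push_cast
      rfl
  have h1 : (∑ z : V, if z ∈ perp B C then N B O z else 0) =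
      ∑ v : V, if v ∈ O then (∑ z : V, if z ∈ perp B C ∧ B v z = 0 then (1 : ℤ) else 0) else 0 := by
    have h2 : ∀ z : V, (if z ∈ perp B C then N B O z else 0) =
        ∑ v : V, if v ∈ O ∧ z ∈ perp B C ∧ B v z = 0 then (1 : ℤ) else 0 := by
      intro z
      split_ifs with hz
      · unfold N
        exact Finset.sum_congr rfl fun v _ => by simp only [hz, true_and]
      · refine (Finset.sum_eq_zero fun v _ => if_neg ?_).symm
        exact fun h => hz h.2.1
    simp only [h2]
    rw [Finset.sum_comm]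
    refine Finset.sum_congr rfl fun v _ => ?_
    split_ifs with hv
    · exact Finset.sum_congr rfl fun z _ => by simp only [hv, true_and]
    · exact Finset.sum_eq_zero fun z _ => if_neg fun h => hv h.1
  rw [h1]
  simp only [hcard]
  have h3 : ∀ v : V, (if v ∈ O then (if v ∈ C then (Fintype.card F : ℤ) ^ (n - d) else
      (Fintype.card F : ℤ) ^ (n - d - 1)) else 0) =
      (if v ∈ (C : Set V) ∩ O then (1 : ℤ) else 0) * ((Fintype.card F : ℤ) ^ (n - d) - (Fintype.card F : ℤ) ^ (n - d - 1)) +
      (if v ∈ O then (1 : ℤ) else 0) * (Fintype.card F : ℤ) ^ (n - d - 1) := by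
    intro v
    by_cases h4 : v ∈ O <;> by_cases h5 : v ∈ C
    · rw [if_pos h4, if_pos h5, if_pos ⟨h5, h4⟩, if_pos h4]; ring
    · rw [if_pos h4, if_neg h5, if_neg (fun h => h5 h.1), if_pos h4]; ring
    · rw [if_neg h4, if_neg (fun h => h4 h.2), if_neg h4]; ring
    · rw [if_neg h4, if_neg (fun h => h4 h.2), if_neg h4]; ring
  simp only [h3]
  rw [Finset.sum_add_distrib, ← Finset.sum_mul, ← Finset.sum_mul, ← ncard_eq_sum, ← ncard_eq_sum]
  ring

theorem N_eq (O : Set V) (z : V) :
    N B O z = (((perp B (Submodule.span F {z}) : Submodule F V) : Set V) ∩ O).ncard := by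
  classical
  rw [ncard_eq_sum]
  unfold N
  refine Finset.sum_congr rfl fun v _ => ?_
  have h : v ∈ ((perp B (Submodule.span F {z}) : Submodule F V) : Set V) ∩ O ↔ v ∈ O ∧ B v z = 0 := by
    constructor
    · rintro ⟨h1, h2⟩
      exact ⟨h2, h1 z (Submodule.mem_span_singleton_self z)⟩
    · rintro ⟨h1, h2⟩
      refine ⟨?_, h1⟩
      intro w hw
      obtain ⟨c, rfl⟩ := Submodule.mem_span_singleton.1 hw
      rw [smul_right, h2, mul_zero]
  simp only [h]

/-- **no ovoids** -/
theorem no_ovoid (hB : HForm B) {q n : ℕ} (hF : Fintype.card F = q ^ 2) (hn : finrank F V = n) (h5 : 5 ≤ n) {O : Set V}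
    (h0 : (0 : V) ∉ O) (hs : ∀ c : F, c ≠ 0 → ∀ v ∈ O, c • v ∈ O) (hcard : O.ncard = (q ^ 2 - 1) * (q ^ n + 1))
    (h1 : ∀ z ∈ O, (((perp B (Submodule.span F {z}) : Submodule F V) : Set V) ∩ O).ncard = q ^ 2 - 1) : False := by
  classical
  have hq1 : 1 < Fintype.card F := Fintype.one_lt_card
  have hq2 : 2 ≤ q := by
    by_contra h
    have : q = 0 ∨ q = 1 := by omega
    rcases this with rfl | rfl <;> omega
  have hQ1 : 1 ≤ q ^ 2 := by omega
  obtain ⟨m, rfl⟩ : ∃ m, n = m + 2 := ⟨n - 2, by omega⟩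
  set Q : ℤ := (q : ℤ) ^ 2 with hQ
  set a : ℤ := (q : ℤ) ^ m with ha
  have hFQ : (Fintype.card F : ℤ) = Q := by rw [hF]; push_cast; rfl
  have hcO : (O.ncard : ℤ) = (Q - 1) * (Q * a + 1) := by
    rw [hcard, Nat.cast_mul, Nat.cast_sub hQ1]
    push_cast
    rw [pow_add]
    ring
  have hQm : Q ^ m = a ^ 2 := by rw [hQ, ha, ← pow_mul, ← pow_mul, mul_comm]
  have hspan : ∀ v ∈ O, ((((Submodule.span F {v} : Submodule F V) : Set V) ∩ O).ncard : ℤ) = Q - 1 := by
    intro v hv
    have hv0 : v ≠ 0 := fun e => h0 (e ▸ hv)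
    have e : ((Submodule.span F {v} : Submodule F V) : Set V) ∩ O = ((Submodule.span F {v} : Submodule F V) : Set V) \ {0} := by
      ext x
      constructor
      · exact fun hx => ⟨hx.1, fun e => h0 (Set.mem_singleton_iff.1 e ▸ hx.2)⟩
      · rintro ⟨hx, hx0⟩
        obtain ⟨c, rfl⟩ := Submodule.mem_span_singleton.1 hx
        have hc : c ≠ 0 := by
          rintro rfl
          exact hx0 (by rw [zero_smul]; rfl)
        exact ⟨hx, hs c hc v hv⟩
    rw [e, Set.ncard_sdiff_singleton_of_mem (Submodule.zero_mem _), ← Nat.card_coe_set_eq]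
    have h2 : Nat.card ((Submodule.span F {v} : Submodule F V) : Set V) = q ^ 2 := by
      have := card_sub (Submodule.span F {v})
      rw [finrank_span_singleton hv0, pow_one, hF] at this
      exact this
    rw [h2, Nat.cast_sub hQ1]
    push_cast
    rfl
  have hN1 : ∀ z ∈ O, N B O z = Q - 1 := by
    intro z hz
    rw [N_eq, h1 z hz, Nat.cast_sub hQ1]
    push_cast
    rfl
  -- first moment
  have hS1 : ∑ z : V, N B O z = (O.ncard : ℤ) * (Q * a ^ 2) := by
    have h := sum_N hB O (⊥ : Submodule F V) hn (finrank_bot F V) (by omega)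
    have e1 : ∀ z : V, z ∈ perp B (⊥ : Submodule F V) := by
      intro z w hw
      rw [(Submodule.mem_bot F).1 hw, map_zero]
    simp only [e1, if_true] at h
    have e2 : ((⊥ : Submodule F V) : Set V) ∩ O = ∅ := by
      ext x
      constructor
      · rintro ⟨h2, h3⟩
        exact absurd ((Submodule.mem_bot F).1 h2 ▸ h3) h0
      · exact fun h => h.elim
    rw [e2, Set.ncard_empty, Nat.cast_zero, zero_mul, zero_add, sub_zero, hFQ] at h
    rw [h]
    have : m + 2 - 0 - 1 = m + 1 := by omega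
    rw [this, pow_succ, hQm]
    ring
  -- second moment
  have hS2 : ∑ z : V, N B O z * N B O z =
      (O.ncard : ℤ) * ((Q - 1) * (Q * a ^ 2) + ((O.ncard : ℤ) - (Q - 1)) * a ^ 2) := by
    have h2 : ∀ v ∈ O, (∑ z : V, if B v z = 0 then N B O z else 0) =
        (Q - 1) * (Q * a ^ 2) + ((O.ncard : ℤ) - (Q - 1)) * a ^ 2 := by
      intro v hv
      have hv0 : v ≠ 0 := fun e => h0 (e ▸ hv)
      have h := sum_N hB O (Submodule.span F {v}) hn (finrank_span_singleton hv0) (by omega)
      rw [hspan v hv, hFQ] at h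
      have e1 : ∀ z : V, z ∈ perp B (Submodule.span F {v}) ↔ B v z = 0 := by
        intro z
        constructor
        · exact fun h => hB.swap_zero (h v (Submodule.mem_span_singleton_self v))
        · intro h w hw
          obtain ⟨c, rfl⟩ := Submodule.mem_span_singleton.1 hw
          rw [smul_right, hB.swap_zero h, mul_zero]
      simp only [e1] at h
      rw [h]
      have e3 : m + 2 - 1 = m + 1 := by omega
      have e4 : m + 2 - 1 - 1 = m := by omega
      rw [e4, e3, pow_succ, hQm]
      ring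
    have h3 : ∀ z : V, N B O z * N B O z = ∑ v : V, if v ∈ O then (if B v z = 0 then N B O z else 0) else 0 := by
      intro z
      conv_lhs => enter [1]; rw [N]
      rw [Finset.sum_mul]
      refine Finset.sum_congr rfl fun v _ => ?_
      by_cases h4 : v ∈ O <;> by_cases h5 : B v z = 0 <;> simp [h4, h5]
    simp only [h3]
    rw [Finset.sum_comm]
    have h4 : ∀ v : V, (∑ z : V, if v ∈ O then (if B v z = 0 then N B O z else 0) else 0) =
        (if v ∈ O then (1 : ℤ) else 0) * ((Q - 1) * (Q * a ^ 2) + ((O.ncard : ℤ) - (Q - 1)) * a ^ 2) := by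
      intro v
      by_cases hv : v ∈ O
      · simp only [hv, if_true, one_mul]
        exact h2 v hv
      · simp only [hv, if_false, zero_mul, Finset.sum_const_zero]
    simp only [h4]
    rw [← Finset.sum_mul, ← ncard_eq_sum]
  have hS0 : (Fintype.card V : ℤ) = Q ^ 2 * a ^ 2 := by
    rw [Module.card_eq_pow_finrank (K := F), hn, Nat.cast_pow, hFQ, pow_add, hQm]
    ring
  have hN0 : N B O 0 = O.ncard := by
    rw [N, ncard_eq_sum]
    refine Finset.sum_congr rfl fun v _ => ?_
    simp only [map_zero, and_true]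
  -- the variance
  set c : ℤ := (Q - 1) * (a + 1) with hc
  have hvar : ∑ z : V, (N B O z - c) ^ 2 =
      ∑ z : V, ((if z = 0 then ((O.ncard : ℤ) - c) ^ 2 else 0) + if z ∈ O then (Q - 1 - c) ^ 2 else 0) := by
    have e1 : ∀ z : V, (N B O z - c) ^ 2 = N B O z * N B O z - 2 * c * N B O z + c ^ 2 := fun z => by ring
    simp only [e1]
    rw [Finset.sum_add_distrib, Finset.sum_sub_distrib, ← Finset.mul_sum, hS2, hS1, Finset.sum_const,
      Finset.card_univ, nsmul_eq_mul, hS0, Finset.sum_add_distrib, Finset.sum_ite_eq' Finset.univ (0 : V)]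
    have e2 : (∑ z : V, if z ∈ O then (Q - 1 - c) ^ 2 else 0) = (O.ncard : ℤ) * (Q - 1 - c) ^ 2 := by
      rw [ncard_eq_sum, Finset.sum_mul]
      exact Finset.sum_congr rfl fun z _ => by split_ifs <;> ring
    rw [e2, if_pos (Finset.mem_univ _), hcO, hc]
    ring
  have hNc : ∀ z : V, z ≠ 0 → z ∉ O → N B O z = c := by
    have h2 : ∑ z : V, (N B O z - c) ^ 2 - ∑ z : V, ((if z = 0 then ((O.ncard : ℤ) - c) ^ 2 else 0) +
        if z ∈ O then (Q - 1 - c) ^ 2 else 0) = 0 := by rw [hvar, sub_self]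
    rw [← Finset.sum_sub_distrib] at h2
    have h3 : ∀ z ∈ (Finset.univ : Finset V), 0 ≤ (N B O z - c) ^ 2 - ((if z = 0 then ((O.ncard : ℤ) - c) ^ 2 else 0) +
        if z ∈ O then (Q - 1 - c) ^ 2 else 0) := by
      intro z _
      by_cases hz : z = 0
      · subst hz
        rw [if_pos rfl, if_neg h0, hN0]
        simp
      · rw [if_neg hz, zero_add]
        by_cases hzO : z ∈ O
        · rw [if_pos hzO, hN1 z hzO]
          simp
        · rw [if_neg hzO, sub_zero]
          exact sq_nonneg _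
    intro z hz hzO
    have h4 := (Finset.sum_eq_zero_iff_of_nonneg h3).1 h2 z (Finset.mem_univ z)
    rw [if_neg hz, if_neg hzO, add_zero, sub_zero, sq_eq_zero_iff, sub_eq_zero] at h4
    exact h4
  -- two independent vectors of `O`
  have hqn : 0 < q ^ (m + 2) := by positivity
  have hQ2 : 0 < q ^ 2 - 1 := by
    have : 2 ^ 2 ≤ q ^ 2 := Nat.pow_le_pow_left hq2 2
    omega
  obtain ⟨x, hx⟩ : O.Nonempty := by
    rw [← Set.ncard_pos, hcard]
    positivity
  have hx0 : x ≠ 0 := fun e => h0 (e ▸ hx)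
  obtain ⟨y, hy, hyx⟩ : ∃ y ∈ O, y ∉ Submodule.span F {x} := by
    by_contra hcon
    push Not at hcon
    have h2 : ((Submodule.span F {x} : Submodule F V) : Set V) ∩ O = O := Set.inter_eq_right.2 hcon
    have h3 := hspan x hx
    rw [h2, hcO] at h3
    have h4 : (0 : ℤ) < Q - 1 := by
      have : ((q ^ 2 - 1 : ℕ) : ℤ) = Q - 1 := by rw [Nat.cast_sub hQ1]; push_cast; rfl
      rw [← this]
      exact_mod_cast hQ2
    have ha0 : (0 : ℤ) < a := by rw [ha]; positivity
    have hQ0 : (0 : ℤ) < Q := by rw [hQ]; positivity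
    have h5 : Q * a = 0 := by
      have : (Q - 1) * (Q * a) = 0 := by linear_combination h3
      exact (mul_eq_zero.1 this).resolve_left h4.ne'
    have := mul_pos hQ0 ha0
    omega
  set L : Submodule F V := Submodule.span F {x} ⊔ Submodule.span F {y} with hL
  have hLd : finrank F L = 2 := by
    rw [hL, finrank_sup_span hyx, finrank_span_singleton hx0]
  have hxL : x ∈ L := Submodule.mem_sup_left (Submodule.mem_span_singleton_self x)
  have hyL : y ∈ L := Submodule.mem_sup_right (Submodule.mem_span_singleton_self y)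
  -- the hyperplanes containing `L`
  have hNL : ∀ z ∈ perp B L, z ≠ 0 → N B O z = c := by
    intro z hz hz0
    refine hNc z hz0 fun hzO => ?_
    -- `z ∈ O` : then `z^⊥` contains only one point of `O`
    have hB0 : B x z = 0 := hB.swap_zero (hz x hxL)
    have hB1 : B y z = 0 := hB.swap_zero (hz y hyL)
    have h2 : ((Submodule.span F {x} : Submodule F V) : Set V) ∩ O ⊆
        ((perp B (Submodule.span F {z}) : Submodule F V) : Set V) ∩ O := by
      rintro v ⟨hv, hvO⟩
      refine ⟨?_, hvO⟩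
      obtain ⟨s, rfl⟩ := Submodule.mem_span_singleton.1 hv
      intro w hw
      obtain ⟨t, rfl⟩ := Submodule.mem_span_singleton.1 hw
      rw [smul_left, smul_right, hB0, mul_zero, mul_zero]
    have h3 : (((Submodule.span F {x} : Submodule F V) : Set V) ∩ O).ncard = q ^ 2 - 1 := by
      have h4 := hspan x hx
      have h5 : ((q ^ 2 - 1 : ℕ) : ℤ) = Q - 1 := by rw [Nat.cast_sub hQ1]; push_cast; rfl
      rw [← h5] at h4
      exact_mod_cast h4
    have h4 := Set.eq_of_subset_of_ncard_le h2 (by rw [h1 z hzO, h3]) (Set.toFinite _)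
    have h5 : y ∈ ((perp B (Submodule.span F {z}) : Submodule F V) : Set V) ∩ O := by
      refine ⟨?_, hy⟩
      intro w hw
      obtain ⟨t, rfl⟩ := Submodule.mem_span_singleton.1 hw
      rw [smul_right, hB1, mul_zero]
    rw [← h4] at h5
    exact hyx h5.1
  have hSL := sum_N hB O L hn hLd (by omega)
  have hperpL : (∑ z : V, if z ∈ perp B L then (1 : ℤ) else 0) = Q ^ m := by
    have e1 : (∑ z : V, if z ∈ perp B L then (1 : ℤ) else 0) = (Nat.card (perp B L) : ℤ) := by
      rw [show (Nat.card (perp B L) : ℤ) = (((perp B L : Submodule F V) : Set V).ncard : ℤ) by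
        rw [← Nat.card_coe_set_eq]; rfl, ncard_eq_sum]
      rfl
    have h5 := finrank_perp hB L
    rw [e1, card_sub, Nat.cast_pow, hFQ]
    congr 1
    omega
  have hSL' : (∑ z : V, if z ∈ perp B L then N B O z else 0) = (O.ncard : ℤ) + (Q ^ m - 1) * c := by
    have e1 : ∀ z : V, (if z ∈ perp B L then N B O z else 0) =
        (if z = 0 then ((O.ncard : ℤ) - c) else 0) + (if z ∈ perp B L then (1 : ℤ) else 0) * c := by
      intro z
      by_cases hz : z = 0
      · subst hz
        rw [if_pos (Submodule.zero_mem _), if_pos rfl, if_pos (Submodule.zero_mem _), hN0]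
        ring
      · by_cases hzL : z ∈ perp B L
        · rw [if_pos hzL, if_neg hz, if_pos hzL, hNL z hzL hz]
          ring
        · rw [if_neg hzL, if_neg hz, if_neg hzL]
          ring
    simp only [e1]
    rw [Finset.sum_add_distrib, Finset.sum_ite_eq' Finset.univ (0 : V), if_pos (Finset.mem_univ _), ← Finset.sum_mul,
      hperpL]
    ring
  rw [hSL', hFQ] at hSL
  have e3 : m + 2 - 2 = m := by omega
  rw [e3] at hSL
  obtain ⟨X, hX⟩ : ∃ X : ℤ, (((L : Set V) ∩ O).ncard : ℤ) = X := ⟨_, rfl⟩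
  rw [hX, hcO] at hSL
  obtain ⟨r, rfl⟩ : ∃ r, m = r + 1 := ⟨m - 1, by omega⟩
  rw [Nat.add_sub_cancel, pow_succ] at hSL
  -- `X Q^r = (Q - 1) (Q^r + a)`
  have hQ0 : (Q - 1 : ℤ) ≠ 0 := by
    have : ((q ^ 2 - 1 : ℕ) : ℤ) = Q - 1 := by rw [Nat.cast_sub hQ1]; push_cast; rfl
    rw [← this]
    exact_mod_cast hQ2.ne'
  have hfin : X * Q ^ r = (Q - 1) * (Q ^ r + a) := by
    apply mul_left_cancel₀ hQ0
    linear_combination -hSL
  -- divisibility
  have hdvd : (q : ℤ) ^ (2 * r) ∣ (q : ℤ) ^ (r + 1) := by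
    have h2 : (q : ℤ) ^ (2 * r) ∣ (Q - 1) * (q : ℤ) ^ (r + 1) := by
      refine ⟨X - (Q - 1), ?_⟩
      rw [← ha, pow_mul, ← hQ]
      linear_combination -hfin
    have h3 : IsCoprime ((q : ℤ) ^ (2 * r)) (Q - 1) := by
      apply IsCoprime.pow_left
      refine ⟨q, -1, ?_⟩
      rw [hQ]
      ring
    exact h3.dvd_of_dvd_mul_left h2
  have h6 : q ^ (2 * r) ∣ q ^ (r + 1) := by exact_mod_cast hdvd
  have h7 := (Nat.pow_dvd_pow_iff_le_right (by omega : 1 < q)).1 h6
  omega

end Cfsg.Agent.H450.UF.Ovoid
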