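import Cfsg.Agent.H449.U.Six

/-!
# Partial ovoids meeting all generators: reduction to dimension six (helper450, for helper449, S2196)

* `HP B e f` : hyperbolic pairs; `UU B e f` : their orthogonal space, `prj` : the orthogonal projection onto it;
* `even_false` : `V` of dimension `2 m`, `m ≥ 3`, `O` an orbit of `K` on isotropic points with property `AffP`, no two
  distinct points of `O` are orthogonal, every totally isotropic subspace of dimension `m` meets `O`: impossible.
-/

set_option autoImplicit false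
set_option linter.unusedSectionVars false

namespace Cfsg.Agent.H450.UF.Red

open Module Cfsg.Agent.H91.U Cfsg.Agent.H450.UF Cfsg.Agent.H449.U

section

variable {F V : Type*} [Field F] [AddCommGroup V] [Module F V] {σ : F →+* F} {B : V →ₛₗ[σ] V →ₗ[F] F} {k : ℕ}

/-- hyperbolic pairs -/
structure HP (B : V →ₛₗ[σ] V →ₗ[F] F) {k : ℕ} (e f : Fin k → V) : Prop where
  ee : ∀ i j, B (e i) (e j) = 0
  ff : ∀ i j, B (f i) (f j) = 0
  ef : ∀ i j, B (e i) (f j) = if i = j then 1 else 0
  fe : ∀ i j, B (f i) (e j) = if i = j then 1 else 0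

/-- the orthogonal space -/
def UU (B : V →ₛₗ[σ] V →ₗ[F] F) {k : ℕ} (e f : Fin k → V) : Submodule F V where
  carrier := {v | (∀ l, B (e l) v = 0) ∧ ∀ l, B (f l) v = 0}
  add_mem' := fun {x y} hx hy => ⟨fun l => by rw [map_add, hx.1, hy.1, add_zero],
    fun l => by rw [map_add, hx.2, hy.2, add_zero]⟩
  zero_mem' := ⟨fun _ => map_zero _, fun _ => map_zero _⟩
  smul_mem' := fun c x hx => ⟨fun l => by rw [smul_right, hx.1, mul_zero], fun l => by rw [smul_right, hx.2, mul_zero]⟩

theorem mem_UU {e f : Fin k → V} {v : V} : v ∈ UU B e f ↔ (∀ l, B (e l) v = 0) ∧ ∀ l, B (f l) v = 0 := Iff.rfl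

/-- the projection -/
def prj (B : V →ₛₗ[σ] V →ₗ[F] F) {k : ℕ} (e f : Fin k → V) : V →ₗ[F] V :=
  LinearMap.id - ∑ l, (B (f l)).smulRight (e l) - ∑ l, (B (e l)).smulRight (f l)

theorem prj_apply (e f : Fin k → V) (v : V) :
    prj B e f v = v - ∑ l, B (f l) v • e l - ∑ l, B (e l) v • f l := by
  unfold prj
  rw [LinearMap.sub_apply, LinearMap.sub_apply, LinearMap.sum_apply, LinearMap.sum_apply]
  rfl

theorem prj_mem {e f : Fin k → V} (h : HP B e f) (v : V) : prj B e f v ∈ UU B e f := by
  rw [mem_UU, prj_apply]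
  constructor
  · intro l
    rw [map_sub, map_sub, map_sum, map_sum]
    simp only [smul_right, h.ee, h.ef, mul_zero, Finset.sum_const_zero, sub_zero, mul_ite, mul_one]
    rw [Finset.sum_ite_eq, if_pos (Finset.mem_univ _), sub_self]
  · intro l
    rw [map_sub, map_sub, map_sum, map_sum]
    simp only [smul_right, h.ff, h.fe, mul_zero, Finset.sum_const_zero, sub_zero, mul_ite, mul_one]
    rw [Finset.sum_ite_eq, if_pos (Finset.mem_univ _), sub_self]

theorem prj_of_mem {e f : Fin k → V} {v : V} (hv : v ∈ UU B e f) : prj B e f v = v := by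
  rw [prj_apply]
  simp only [hv.1, hv.2, zero_smul, Finset.sum_const_zero, sub_zero]

/-- the part in the span of `e` -/
theorem sub_prj_mem {e f : Fin k → V} {v : V} (hv : ∀ l, B (e l) v = 0) : v - prj B e f v ∈ Submodule.span F (Set.range e) := by
  rw [prj_apply]
  simp only [hv, zero_smul, Finset.sum_const_zero, sub_zero, sub_sub_cancel]
  exact Submodule.sum_mem _ fun l _ => Submodule.smul_mem _ _ (Submodule.subset_span ⟨l, rfl⟩)

theorem prj_of_mem_span {e f : Fin k → V} (h : HP B e f) {z : V} (hz : z ∈ Submodule.span F (Set.range e)) :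
    prj B e f z = 0 := by
  have h1 : Submodule.span F (Set.range e) ≤ LinearMap.ker (prj B e f) := by
    rw [Submodule.span_le]
    rintro _ ⟨l, rfl⟩
    change prj B e f (e l) = 0
    rw [prj_apply]
    simp only [h.ee, h.fe, zero_smul, Finset.sum_const_zero, sub_zero, ite_smul, one_smul]
    rw [Finset.sum_ite_eq', if_pos (Finset.mem_univ _), sub_self]
  exact h1 hz

/-- the restricted form -/
def rB (B : V →ₛₗ[σ] V →ₗ[F] F) {k : ℕ} (e f : Fin k → V) : UU B e f →ₛₗ[σ] UU B e f →ₗ[F] F :=
  B.domRestrict₁₂ (UU B e f) (UU B e f)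

theorem rB_apply (e f : Fin k → V) (x y : UU B e f) : rB B e f x y = B (x : V) (y : V) := rfl

theorem hform_rB (hB : HForm B) {e f : Fin k → V} (h : HP B e f) : HForm (rB B e f) := by
  have key : ∀ x : UU B e f, (∀ y : UU B e f, B (x : V) (y : V) = 0) → x = 0 := by
    intro x hx
    apply Subtype.ext
    apply hB.eq_zero
    intro v
    have h1 := hx ⟨prj B e f v, prj_mem h v⟩
    change B (x : V) (prj B e f v) = 0 at h1
    rw [prj_apply, map_sub, map_sub, map_sum, map_sum] at h1
    simp only [smul_right, hB.swap_zero (x.2.1 _), hB.swap_zero (x.2.2 _), mul_zero, Finset.sum_const_zero,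
      sub_zero] at h1
    exact h1
  refine ⟨⟨fun x hx => key x hx, fun y hy => key y fun x => hB.swap_zero (hy x)⟩, ⟨fun x y => ?_⟩, hB.invol, hB.ne_id⟩
  rw [rB_apply, rB_apply]
  exact hB.symm.eq _ _

theorem finrank_UU [FiniteDimensional F V] {e f : Fin k → V} (h : HP B e f) :
    finrank F (UU B e f) + 2 * k = finrank F V := by
  let T : V →ₗ[F] (Fin k → F) × (Fin k → F) := (LinearMap.pi fun l => B (e l)).prod (LinearMap.pi fun l => B (f l))
  have hT : LinearMap.ker T = UU B e f := by
    ext v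
    rw [LinearMap.mem_ker, mem_UU]
    constructor
    · intro h1
      exact ⟨fun l => congrFun (congrArg Prod.fst h1) l, fun l => congrFun (congrArg Prod.snd h1) l⟩
    · rintro ⟨h1, h2⟩
      exact Prod.ext (funext h1) (funext h2)
  have hs : Function.Surjective T := by
    rintro ⟨a, b⟩
    refine ⟨∑ l, a l • f l + ∑ l, b l • e l, Prod.ext (funext fun i => ?_) (funext fun i => ?_)⟩
    · change B (e i) (∑ l, a l • f l + ∑ l, b l • e l) = a i
      rw [map_add, map_sum, map_sum]
      simp only [smul_right, h.ee, h.ef, mul_zero, Finset.sum_const_zero, add_zero, mul_ite, mul_one]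
      rw [Finset.sum_ite_eq, if_pos (Finset.mem_univ _)]
    · change B (f i) (∑ l, a l • f l + ∑ l, b l • e l) = b i
      rw [map_add, map_sum, map_sum]
      simp only [smul_right, h.ff, h.fe, mul_zero, Finset.sum_const_zero, zero_add, mul_ite, mul_one]
      rw [Finset.sum_ite_eq, if_pos (Finset.mem_univ _)]
  have h1 := LinearMap.finrank_range_add_finrank_ker T
  rw [LinearMap.range_eq_top.2 hs, finrank_top, finrank_prod, finrank_fin_fun, hT] at h1
  omega

/-! ### the flags -/

theorem W_append_le {j : ℕ} (e : Fin k → V) (u : Fin j → V) {l : ℕ} (hl : l ≤ k) :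
    W F (Fin.append e u) l = W F e l := by
  apply le_antisymm
  · refine W_le_iff.2 fun i hi => ?_
    refine Fin.addCases (fun i => ?_) (fun i => ?_) i (motive := fun i => (i : ℕ) < l → Fin.append e u i ∈ W F e l) hi
    · intro hi
      rw [Fin.append_left]
      exact mem_W e (by simpa using hi)
    · intro hi
      exfalso
      rw [Fin.val_natAdd] at hi
      omega
  · refine W_le_iff.2 fun i hi => ?_
    rw [← Fin.append_left e u i]
    exact mem_W _ (by simpa using hi)

theorem W_append_add {j : ℕ} (e : Fin k → V) (u : Fin j → V) (i : ℕ) :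
    W F (Fin.append e u) (k + i) = Submodule.span F (Set.range e) ⊔ W F u i := by
  apply le_antisymm
  · refine W_le_iff.2 fun l hl => ?_
    refine Fin.addCases (fun l => ?_) (fun l => ?_) l (motive := fun l => (l : ℕ) < k + i →
      Fin.append e u l ∈ Submodule.span F (Set.range e) ⊔ W F u i) hl
    · intro _
      rw [Fin.append_left]
      exact Submodule.mem_sup_left (Submodule.subset_span ⟨l, rfl⟩)
    · intro hl
      rw [Fin.append_right]
      rw [Fin.val_natAdd] at hl
      exact Submodule.mem_sup_right (mem_W u (by omega))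
  · refine sup_le ?_ ?_
    · rw [Submodule.span_le]
      rintro _ ⟨l, rfl⟩
      have := mem_W (F := F) (Fin.append e u) (i := k + i) (l := Fin.castAdd j l) (by
        rw [Fin.val_castAdd]; omega)
      rwa [Fin.append_left] at this
    · refine W_le_iff.2 fun l hl => ?_
      have := mem_W (F := F) (Fin.append e u) (i := k + i) (l := Fin.natAdd k l) (by
        rw [Fin.val_natAdd]; omega)
      rwa [Fin.append_right] at this

theorem W_coe {U : Submodule F V} {j : ℕ} (u : Fin j → U) (i : ℕ) :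
    W F (fun l => (u l : V)) i = (W F u i).map U.subtype := by
  unfold W
  rw [Submodule.map_span, Set.image_image]
  rfl

theorem frame_append (hB : HForm B) {e f : Fin k → V} (h : HP B e f) {j : ℕ} {u : Fin j → UU B e f}
    (hu : Frame (rB B e f) u) : Frame B (Fin.append e (fun l => (u l : V))) := by
  refine ⟨?_, ?_⟩
  · rw [Fintype.linearIndependent_iff]
    intro c hc
    rw [Fin.sum_univ_add] at hc
    simp only [Fin.append_left, Fin.append_right] at hc
    have h1 : ∀ l : Fin k, c (Fin.castAdd j l) = 0 := by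
      intro l
      have h2 := congrArg (B (f l)) hc
      rw [map_add, map_sum, map_sum, map_zero] at h2
      simp only [smul_right, h.fe, (u _).2.2 l, mul_zero, Finset.sum_const_zero, add_zero, mul_ite, mul_one] at h2
      rwa [Finset.sum_ite_eq, if_pos (Finset.mem_univ _)] at h2
    simp only [h1, zero_smul, Finset.sum_const_zero, zero_add] at hc
    have h2 : ∀ l : Fin j, c (Fin.natAdd k l) = 0 := by
      refine Fintype.linearIndependent_iff.1 hu.li (fun l => c (Fin.natAdd k l)) ?_
      apply Subtype.ext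
      rw [Submodule.coe_sum]
      exact hc
    intro i
    exact Fin.addCases (motive := fun i => c i = 0) h1 h2 i
  · intro a b
    refine Fin.addCases (fun a => ?_) (fun a => ?_) a (motive := fun a =>
      B (Fin.append e (fun l => (u l : V)) a) (Fin.append e (fun l => (u l : V)) b) = 0) <;>
      refine Fin.addCases (fun b => ?_) (fun b => ?_) b (motive := fun b =>
        B (Fin.append e (fun l => (u l : V)) _) (Fin.append e (fun l => (u l : V)) b) = 0)
    · rw [Fin.append_left, Fin.append_left, h.ee]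
    · rw [Fin.append_left, Fin.append_right]
      exact (u b).2.1 a
    · rw [Fin.append_left, Fin.append_right]
      exact hB.swap_zero ((u a).2.1 b)
    · rw [Fin.append_right, Fin.append_right]
      exact hu.ti a b

end

section

variable {F V : Type*} [Field F] [Fintype F] [AddCommGroup V] [Module F V] [FiniteDimensional F V] [Fintype V]
  {σ : F →+* F} {B : V →ₛₗ[σ] V →ₗ[F] F} {k : ℕ}

/-- the intersection numbers with a partial ovoid -/
theorem nn_ti {O : Set V} (hc : Cone F O) (h1 : ∀ x ∈ O, ∀ y ∈ O, B x y = 0 → y ∈ Submodule.span F {x})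
    {C : Submodule F V} (hC : TI B C) {x : V} (hx : x ∈ C) (hxO : x ∈ O) : nn O C = Fintype.card F - 1 := by
  classical
  have hx0 := hc.ne hxO
  have e : ((C : Set V) ∩ O) = Set.range fun c : Fˣ => (c : F) • x := by
    ext v
    constructor
    · rintro ⟨h2, h3⟩
      obtain ⟨c, rfl⟩ := Submodule.mem_span_singleton.1 (h1 x hxO v h3 (hC x hx v h2))
      have hc0 : c ≠ 0 := by
        rintro rfl
        exact hc.ne h3 (zero_smul F x)
      exact ⟨Units.mk0 c hc0, rfl⟩
    · rintro ⟨c, rfl⟩
      exact ⟨C.smul_mem _ hx, hc.smul _ c.ne_zero x hxO⟩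
  unfold nn
  rw [e, ← Set.image_univ, Set.ncard_image_of_injective _ (fun a b e => Units.ext (smul_left_injective F hx0 e)),
    Set.ncard_univ, Nat.card_eq_fintype_card, Fintype.card_units]

theorem nn_eq_of_iff {O : Set V} (hc : Cone F O) (h1 : ∀ x ∈ O, ∀ y ∈ O, B x y = 0 → y ∈ Submodule.span F {x})
    {C C' : Submodule F V} (hC : TI B C) (hC' : TI B C') (h : (∃ x ∈ C, x ∈ O) ↔ ∃ x ∈ C', x ∈ O) :
    nn O C = nn O C' := by
  by_cases h2 : ∃ x ∈ C, x ∈ O
  · obtain ⟨x, hx, hxO⟩ := h2
    obtain ⟨y, hy, hyO⟩ := h.1 ⟨x, hx, hxO⟩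
    rw [nn_ti hc h1 hC hx hxO, nn_ti hc h1 hC' hy hyO]
  · have h3 : ¬ ∃ x ∈ C', x ∈ O := fun h4 => h2 (h.2 h4)
    push Not at h2 h3
    rw [nn_eq_zero h2, nn_eq_zero h3]

/-- the set in the smaller space -/
def O1 (B : V →ₛₗ[σ] V →ₗ[F] F) (O : Set V) {k : ℕ} (e f : Fin k → V) : Set (UU B e f) :=
  {v | ∃ z ∈ Submodule.span F (Set.range e), (v : V) + z ∈ O}

/-- its stabiliser -/
def K1 (B : V →ₛₗ[σ] V →ₗ[F] F) (O : Set V) {k : ℕ} (e f : Fin k → V) : Subgroup (UU B e f ≃ₗ[F] UU B e f) where
  carrier := {t | (∀ x y, rB B e f (t x) (t y) = rB B e f x y) ∧ ∀ v, t v ∈ O1 B O e f ↔ v ∈ O1 B O e f}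
  mul_mem' := fun {s t} hs ht => ⟨fun x y => by
    rw [LinearEquiv.mul_apply, LinearEquiv.mul_apply, hs.1, ht.1], fun v => by
    rw [LinearEquiv.mul_apply, hs.2, ht.2]⟩
  one_mem' := ⟨fun _ _ => rfl, fun _ => Iff.rfl⟩
  inv_mem' := fun {t} ht => ⟨fun x y => by
    have h1 := ht.1 (t⁻¹ x) (t⁻¹ y)
    rw [← LinearEquiv.mul_apply, ← LinearEquiv.mul_apply, mul_inv_cancel] at h1
    exact h1.symm, fun v => by
    have h1 := ht.2 (t⁻¹ v)
    rw [← LinearEquiv.mul_apply, mul_inv_cancel] at h1
    exact h1.symm⟩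

theorem sixD (hB : HForm B) {m : ℕ} (hV : finrank F V = 2 * m) {K : Subgroup (SIso B)} {O : Set V}
    (hO : Orb K O) (hA : AffP K O) (h1 : ∀ x ∈ O, ∀ y ∈ O, B x y = 0 → y ∈ Submodule.span F {x})
    (h3 : ∀ M : Submodule F V, finrank F M = m → TI B M → ∃ x ∈ M, x ∈ O) (hk : k + 3 = m) {e f : Fin k → V}
    (h : HP B e f) (hZ : ∀ z ∈ Submodule.span F (Set.range e), z ∉ O) :
    SixD (rB B e f) (O1 B O e f) (K1 B O e f) := by
  classical
  have hc : Cone F O := Orb.cone hO
  have hzz : ∀ z ∈ Submodule.span F (Set.range e), ∀ z' ∈ Submodule.span F (Set.range e), B z z' = 0 :=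
    ti_span (by rintro _ ⟨i, rfl⟩ _ ⟨l, rfl⟩; exact h.ee i l)
  have hzu : ∀ z ∈ Submodule.span F (Set.range e), ∀ v : V, (∀ l, B (e l) v = 0) → B z v = 0 := by
    intro z hz v hv
    have h4 : v ∈ LinearMap.ker (B z) := by
      apply LinearMap.mem_ker.2
      apply hB.swap_zero
      have h5 : Submodule.span F (Set.range e) ≤ LinearMap.ker (B v) := by
        rw [Submodule.span_le]
        rintro _ ⟨l, rfl⟩
        exact hB.swap_zero (hv l)
      exact LinearMap.mem_ker.1 (h5 hz)
    exact LinearMap.mem_ker.1 h4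
  have hzU : ∀ z ∈ Submodule.span F (Set.range e), ∀ v : UU B e f, B z (v : V) = 0 :=
    fun z hz v => hzu z hz v v.2.1
  refine
    { hB := hform_rB hB h
      hV := by
        have := finrank_UU h
        omega
      cone := ⟨?_, ?_⟩
      iso := ?_
      one := ?_
      meet := ?_
      isom := fun t ht => ht.1
      inv := fun t ht v hv => (ht.2 v).2 hv
      tr := ?_ }
  · rintro ⟨z, hz, hzO⟩
    rw [Submodule.coe_zero, zero_add] at hzO
    exact hZ z hz hzO
  · rintro c hc0 v ⟨z, hz, hzO⟩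
    refine ⟨c • z, Submodule.smul_mem _ _ hz, ?_⟩
    have := hc.smul c hc0 _ hzO
    rwa [smul_add] at this
  · rintro v ⟨z, hz, hzO⟩
    have h4 := hO.iso _ hzO
    rw [map_add, map_add, LinearMap.add_apply, LinearMap.add_apply, hzU z hz v, hzz z hz z hz,
      hB.swap_zero (hzU z hz v), add_zero, add_zero, add_zero] at h4
    exact h4
  · rintro x ⟨z, hz, hzO⟩ y ⟨z', hz', hzO'⟩ hxy
    have h4 : B ((x : V) + z) ((y : V) + z') = 0 := by
      rw [map_add, map_add, LinearMap.add_apply, LinearMap.add_apply, hzU z hz y, hzz z hz z' hz',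
        hB.swap_zero (hzU z' hz' x), add_zero, add_zero, add_zero]
      exact hxy
    obtain ⟨c, hc'⟩ := Submodule.mem_span_singleton.1 (h1 _ hzO _ hzO' h4)
    refine Submodule.mem_span_singleton.2 ⟨c, Subtype.ext ?_⟩
    have h5 := congrArg (prj B e f) hc'
    rw [map_smul, map_add, map_add, prj_of_mem x.2, prj_of_mem y.2, prj_of_mem_span h hz, prj_of_mem_span h hz',
      add_zero, add_zero] at h5
    exact h5
  · intro M hM hTI
    obtain ⟨u, hu, hW⟩ := exists_frame_of_ti hTI hM
    have hw := frame_append hB h hu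
    have h4 := h3 (W F (Fin.append e (fun l => (u l : V))) (k + 3)) (by
      rw [finrank_W hw.li le_rfl]; exact hk) (hw.W_ti _)
    obtain ⟨x, hx, hxO⟩ := h4
    rw [W_append_add, W_coe, hW] at hx
    obtain ⟨z, hz, y, hy, rfl⟩ := Submodule.mem_sup.1 hx
    obtain ⟨v, hv, rfl⟩ := hy
    exact ⟨v, hv, z, hz, by rw [add_comm]; exact hxO⟩
  · -- transitivity
    intro u u' hu hu' hflag _
    have hw := frame_append hB h hu
    have hw' := frame_append hB h hu'
    have hmeet : ∀ (u : Fin 3 → UU B e f) (i : ℕ),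
        (∃ v ∈ W F (Fin.append e (fun l => (u l : V))) (k + i), v ∈ O) ↔ ∃ v ∈ W F u i, v ∈ O1 B O e f := by
      intro u i
      rw [W_append_add, W_coe]
      constructor
      · rintro ⟨x, hx, hxO⟩
        obtain ⟨z, hz, y, hy, rfl⟩ := Submodule.mem_sup.1 hx
        obtain ⟨v, hv, rfl⟩ := hy
        exact ⟨v, hv, z, hz, by rw [add_comm]; exact hxO⟩
      · rintro ⟨v, hv, z, hz, hvO⟩
        exact ⟨(v : V) + z, Submodule.add_mem _ (Submodule.mem_sup_right ⟨v, hv, rfl⟩) (Submodule.mem_sup_left hz), hvO⟩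
    obtain ⟨g, hg, hgW⟩ := flag_trans hA hw hw' (by
      intro l hl
      rcases Nat.le_total l k with hlk | hlk
      · rw [W_append_le e _ hlk, W_append_le e _ hlk]
      · obtain ⟨i, rfl⟩ := Nat.exists_eq_add_of_le hlk
        refine nn_eq_of_iff hc h1 (hw.W_ti _) (hw'.W_ti _) ?_
        rw [hmeet, hmeet]
        exact hflag i)
    -- `g` fixes the span of `e`
    have hgZ : (Submodule.span F (Set.range e)).map (g.1 : V →ₗ[F] V) = Submodule.span F (Set.range e) := by
      have h4 := hgW k
      rwa [W_append_le e _ le_rfl, W_append_le e _ le_rfl, W_of_le e le_rfl] at h4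
    have hgZ1 : ∀ z ∈ Submodule.span F (Set.range e), g • z ∈ Submodule.span F (Set.range e) := by
      intro z hz
      rw [← hgZ]
      exact ⟨z, hz, rfl⟩
    have hgZ2 : ∀ z ∈ Submodule.span F (Set.range e), g⁻¹ • z ∈ Submodule.span F (Set.range e) := by
      intro z hz
      rw [← hgZ] at hz
      obtain ⟨z', hz', rfl⟩ := hz
      have : g⁻¹ • (g • z') = z' := inv_smul_smul g z'
      change g⁻¹ • (g • z') ∈ _
      rw [this]
      exact hz'
    have hperp : ∀ v : V, (∀ l, B (e l) v = 0) → ∀ l, B (e l) (g • v) = 0 := by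
      intro v hv l
      have h4 := B_smul g (g⁻¹ • e l) v
      rw [smul_inv_smul] at h4
      rw [h4]
      exact hzu _ (hgZ2 _ (Submodule.subset_span ⟨l, rfl⟩)) v hv
    -- the map
    let t0 : UU B e f →ₗ[F] UU B e f :=
      LinearMap.codRestrict (UU B e f) ((prj B e f).comp ((g.1 : V →ₗ[F] V).comp (UU B e f).subtype))
        (fun v => prj_mem h _)
    have ht0 : ∀ v, ((t0 v : UU B e f) : V) = prj B e f (g • (v : V)) := fun v => rfl
    have hdiff : ∀ v : UU B e f, ∃ z ∈ Submodule.span F (Set.range e), g • (v : V) = (t0 v : V) + z := by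
      intro v
      refine ⟨g • (v : V) - prj B e f (g • (v : V)), sub_prj_mem (hperp v v.2.1), ?_⟩
      rw [ht0, add_sub_cancel]
    have hiso : ∀ v w, rB B e f (t0 v) (t0 w) = rB B e f v w := by
      intro v w
      obtain ⟨z, hz, hv⟩ := hdiff v
      obtain ⟨z', hz', hw⟩ := hdiff w
      rw [rB_apply, rB_apply, ← B_smul g (v : V) (w : V), hv, hw, map_add, map_add, LinearMap.add_apply,
        LinearMap.add_apply, hzU z hz, hzz z hz z' hz', hB.swap_zero (hzU z' hz' _), add_zero, add_zero, add_zero]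
    have hinj : Function.Injective t0 := by
      rw [injective_iff_map_eq_zero]
      intro v hv
      apply (hform_rB hB h).eq_zero
      intro w
      rw [← hiso, hv, map_zero, LinearMap.zero_apply]
    let t : UU B e f ≃ₗ[F] UU B e f := LinearEquiv.ofInjectiveEndo t0 hinj
    have ht : ∀ v, t v = t0 v := fun v => rfl
    have hKO : ∀ v, t v ∈ O1 B O e f ↔ v ∈ O1 B O e f := by
      intro v
      obtain ⟨z', hz', hv⟩ := hdiff v
      rw [ht]
      constructor
      · rintro ⟨z, hz, hzO⟩
        refine ⟨g⁻¹ • (z - z'), hgZ2 _ (Submodule.sub_mem _ hz hz'), ?_⟩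
        rw [← hO.inv g hg]
        have h4 : g • ((v : V) + g⁻¹ • (z - z')) = g • (v : V) + g • (g⁻¹ • (z - z')) := map_add g.1 _ _
        rw [h4, smul_inv_smul, hv]
        have h5 : (t0 v : V) + z' + (z - z') = (t0 v : V) + z := by abel
        rw [h5]
        exact hzO
      · rintro ⟨z, hz, hzO⟩
        refine ⟨z' + g • z, Submodule.add_mem _ hz' (hgZ1 z hz), ?_⟩
        have h4 : g • ((v : V) + z) = g • (v : V) + g • z := map_add g.1 _ _
        have h5 := (hO.inv g hg _).2 hzO
        rw [h4, hv] at h5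
        rwa [← add_assoc]
    refine ⟨t, ⟨hiso, hKO⟩, fun i => ?_⟩
    have hle : (W F u i).map (t : UU B e f →ₗ[F] UU B e f) ≤ W F u' i := by
      rintro _ ⟨v, hv, rfl⟩
      change t0 v ∈ W F u' i
      have h4 : g.1 (v : V) ∈ W F (Fin.append e (fun l => (u' l : V))) (k + i) := by
        rw [← hgW (k + i)]
        refine ⟨(v : V), ?_, rfl⟩
        rw [W_append_add, W_coe]
        exact Submodule.mem_sup_right ⟨v, hv, rfl⟩
      rw [W_append_add, W_coe] at h4
      obtain ⟨z, hz, y, hy, e1⟩ := Submodule.mem_sup.1 h4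
      obtain ⟨v', hv', rfl⟩ := hy
      have h5 : t0 v = v' := by
        apply Subtype.ext
        rw [ht0]
        change prj B e f (g.1 (v : V)) = v'
        rw [← e1, map_add, prj_of_mem_span h hz, zero_add]
        exact prj_of_mem v'.2
      rw [h5]
      exact hv'
    refine Submodule.eq_of_le_of_finrank_eq hle ?_
    rw [LinearEquiv.finrank_map_eq]
    rcases Nat.le_total i 3 with hi | hi
    · rw [finrank_W hu.li hi, finrank_W hu'.li hi]
    · rw [W_of_le u hi, W_of_le u' hi, finrank_span_eq_card hu.li, finrank_span_eq_card hu'.li]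

/-- **partial ovoids meeting all generators do not occur** -/
theorem even_false {q : ℕ} (hF : Fintype.card F = q ^ 2) (hB : HForm B) {m : ℕ} (hV : finrank F V = 2 * m) (hm : 3 ≤ m)
    {K : Subgroup (SIso B)} {O : Set V} (hO : Orb K O) (hA : AffP K O)
    (h1 : ∀ x ∈ O, ∀ y ∈ O, B x y = 0 → y ∈ Submodule.span F {x})
    (h3 : ∀ M : Submodule F V, finrank F M = m → TI B M → ∃ x ∈ M, x ∈ O) : False := by
  classical
  obtain ⟨k, rfl⟩ : ∃ k, m = k + 3 := ⟨m - 3, by omega⟩
  have hc : Cone F O := Orb.cone hO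
  obtain ⟨M, -, hTI, hM⟩ := exists_ti_le hB (ti_bot (B := B)) (k := k + 3) (by rw [finrank_bot]; omega) (by rw [hV])
  obtain ⟨x, hx, hxO⟩ := h3 M hM hTI
  have hx0 := hc.ne hxO
  -- a complement of `x` in `M`
  obtain ⟨C, hC⟩ := Submodule.exists_isCompl (Submodule.span F {(⟨x, hx⟩ : M)})
  have hx0' : (⟨x, hx⟩ : M) ≠ 0 := fun e => hx0 (congrArg Subtype.val e)
  have hCd : finrank F (C.map M.subtype) = k + 2 := by
    have h4 := Submodule.finrank_add_eq_of_isCompl hC
    rw [finrank_span_singleton hx0', hM] at h4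
    rw [Submodule.finrank_map_subtype_eq]
    omega
  have hCM : C.map M.subtype ≤ M := Submodule.map_subtype_le M C
  have hxC : ∀ z ∈ C.map M.subtype, z ∉ O := by
    rintro _ ⟨z, hz, rfl⟩ hzO
    have h4 := h1 x hxO z hzO (hTI x hx z z.2)
    obtain ⟨c, hc'⟩ := Submodule.mem_span_singleton.1 h4
    have h5 : z ∈ Submodule.span F {(⟨x, hx⟩ : M)} ⊓ C :=
      ⟨Submodule.mem_span_singleton.2 ⟨c, Subtype.ext hc'⟩, hz⟩
    rw [hC.inf_eq_bot, Submodule.mem_bot] at h5
    rw [h5] at hzO
    exact hc.zero hzO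
  obtain ⟨u, hu, hW⟩ := exists_frame_of_ti (TI.mono hTI hCM) hCd
  -- the first `k` vectors
  have he : Frame B (fun l : Fin k => u (Fin.castLE (by omega) l)) :=
    ⟨hu.li.comp _ (Fin.castLE_injective _), fun i l => hu.ti _ _⟩
  obtain ⟨f, h4, h5⟩ := exists_dual_frame hF hB he
  have h : HP B (fun l : Fin k => u (Fin.castLE (by omega) l)) f := by
    refine ⟨he.ti, h5, h4, fun i l => ?_⟩
    rw [sw hB, h4]
    by_cases e1 : i = l
    · rw [if_pos e1, if_pos e1.symm, map_one]
    · rw [if_neg e1, if_neg (Ne.symm e1), map_zero]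
  refine six_false hF (sixD hB hV hO hA h1 h3 rfl h fun z hz => hxC z ?_)
  have h6 : Submodule.span F (Set.range fun l : Fin k => u (Fin.castLE (by omega) l)) ≤ C.map M.subtype := by
    rw [← hW, Submodule.span_le]
    rintro _ ⟨l, rfl⟩
    exact mem_W u (by rw [Fin.val_castLE]; omega)
  exact h6 hz

end

end Cfsg.Agent.H450.UF.Red
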