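import Cfsg.Agent.H450.UF.Point

/-!
# Stabilisers of totally isotropic subspaces of dimension at least three have rank at least four (helper450)

* `exists_dual_frame` : hyperbolic partners of a frame;
* `exists_inter` : for `i ≤ j` an element of `SIso B` which moves `M = <u>` to a subspace meeting `M` in dimension `j - i`;
* `four_le` : if `K = stabiliser of x₀` leaves the totally isotropic subspace `M` of dimension at least three invariant,
  then `K` has at least four orbits on `X`;
* `par_main` : the parabolic case: if `K` leaves a nonzero totally isotropic subspace invariant and has rank at most three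
  then `|X|` is the number of isotropic points (`n ≥ 6`).
-/

set_option autoImplicit false
set_option linter.unusedSectionVars false

namespace Cfsg.Agent.H450.UF

open Module Cfsg.Agent.H91.U Cfsg.Agent.LieClassical.HermBasic
open Cfsg.Agent.H950 (isoNum)

variable {F V : Type*} [Field F] [AddCommGroup V] [Module F V] {σ : F →+* F} {B : V →ₛₗ[σ] V →ₗ[F] F} {j : ℕ}

/-- hyperbolic partners -/
theorem exists_dual_frame [Fintype F] [FiniteDimensional F V] {q : ℕ} (hF : Fintype.card F = q ^ 2) (hB : HForm B)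
    {u : Fin j → V} (hu : Frame B u) :
    ∃ f : Fin j → V, (∀ a b, B (u a) (f b) = if a = b then 1 else 0) ∧ ∀ a b, B (f a) (f b) = 0 := by
  obtain ⟨φ, hφ⟩ := exists_model hF hB
  have hli : LinearIndependent F (fun i => φ (u i)) :=
    hu.li.map' (φ : V →ₗ[F] (Fin (finrank F V) → F)) (LinearEquiv.ker φ)
  have hti : ∀ a b, Cfsg.hermForm (finrank F V) F q (φ (u a)) (φ (u b)) = 0 := fun a b => by rw [← hφ, hu.ti]
  obtain ⟨f, h1, h2⟩ := Cfsg.Agent.ClassicalGeometry.HermFrame.exists_hyperbolic hF hli hti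
  refine ⟨fun i => φ.symm (f i), fun a b => ?_, fun a b => ?_⟩
  · rw [hφ, φ.apply_symm_apply, herm_swap hF (φ (u a)) (f b), h1]
    split_ifs
    · exact one_pow q
    · exact zero_pow_q hF
  · rw [hφ, φ.apply_symm_apply, φ.apply_symm_apply, h2]

theorem exists_inter [Fintype F] [FiniteDimensional F V] {q : ℕ} (hF : Fintype.card F = q ^ 2) (hB : HForm B)
    {M : Submodule F V} (hM : TI B M) {i : ℕ} (hi : i ≤ finrank F M) :
    ∃ g : SIso B, finrank F (M ⊓ M.map (g.1 : V →ₗ[F] V) : Submodule F V) = finrank F M - i := by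
  classical
  obtain ⟨j, hj⟩ : ∃ j, finrank F M = j := ⟨_, rfl⟩
  obtain ⟨u, hu, hW⟩ := exists_frame_of_ti hM hj
  obtain ⟨f, h1, h2⟩ := exists_dual_frame hF hB hu
  have h1' : ∀ a b, B (f b) (u a) = if a = b then 1 else 0 := by
    intro a b
    rw [sw hB (u a), h1]
    split_ifs
    · exact map_one σ
    · exact map_zero σ
  let w : Fin j → V := fun l => if (l : ℕ) < i then f l else u l
  have hw1 : ∀ l : Fin j, (l : ℕ) < i → w l = f l := fun l hl => if_pos hl
  have hw2 : ∀ l : Fin j, ¬ (l : ℕ) < i → w l = u l := fun l hl => if_neg hl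
  -- coefficients
  have hc1 : ∀ (c : Fin j → F) (l : Fin j), (l : ℕ) < i → B (u l) (∑ a, c a • w a) = c l := by
    intro c l hl
    rw [map_sum, Finset.sum_eq_single l]
    · rw [smul_right, hw1 l hl, h1, if_pos rfl, mul_one]
    · intro a _ hal
      rw [smul_right]
      by_cases ha : (a : ℕ) < i
      · rw [hw1 a ha, h1, if_neg (Ne.symm hal), mul_zero]
      · rw [hw2 a ha, hu.ti, mul_zero]
    · exact fun h => absurd (Finset.mem_univ l) h
  have hc2 : ∀ (c : Fin j → F) (l : Fin j), ¬ (l : ℕ) < i → B (f l) (∑ a, c a • w a) = c l := by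
    intro c l hl
    rw [map_sum, Finset.sum_eq_single l]
    · rw [smul_right, hw2 l hl, h1', if_pos rfl, mul_one]
    · intro a _ hal
      rw [smul_right]
      by_cases ha : (a : ℕ) < i
      · rw [hw1 a ha, h2, mul_zero]
      · rw [hw2 a ha, h1', if_neg hal, mul_zero]
    · exact fun h => absurd (Finset.mem_univ l) h
  have hwF : Frame B w := by
    refine ⟨?_, ?_⟩
    · rw [Fintype.linearIndependent_iff]
      intro c hc l
      by_cases hl : (l : ℕ) < i
      · rw [← hc1 c l hl, hc, map_zero]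
      · rw [← hc2 c l hl, hc, map_zero]
    · intro a b
      by_cases ha : (a : ℕ) < i <;> by_cases hb : (b : ℕ) < i
      · rw [hw1 a ha, hw1 b hb, h2]
      · rw [hw1 a ha, hw2 b hb, h1', if_neg]
        rintro rfl
        exact hb ha
      · rw [hw2 a ha, hw1 b hb, h1, if_neg]
        rintro rfl
        exact ha hb
      · rw [hw2 a ha, hw2 b hb, hu.ti]
  obtain ⟨g, hg, hgW⟩ := exists_flag_map0 hB hu hwF
  refine ⟨⟨g, hg⟩, ?_⟩
  have h3 : M.map ((⟨g, hg⟩ : SIso B).1 : V →ₗ[F] V) = Submodule.span F (Set.range w) := by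
    rw [← hW]
    exact (hgW j).trans (W_of_le w le_rfl)
  have h4 : M ⊓ Submodule.span F (Set.range w) =
      Submodule.span F (Set.range fun l : {l : Fin j // ¬ (l : ℕ) < i} => u l) := by
    apply le_antisymm
    · rintro x ⟨hx1, hx2⟩
      obtain ⟨c, rfl⟩ := (Submodule.mem_span_range_iff_exists_fun F).1 hx2
      refine Submodule.sum_mem _ fun a _ => ?_
      by_cases ha : (a : ℕ) < i
      · have h5 := hc1 c a ha
        rw [hM (u a) (by rw [← hW]; exact mem_W u a.2) _ hx1] at h5
        rw [← h5, zero_smul]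
        exact Submodule.zero_mem _
      · refine Submodule.smul_mem _ _ (Submodule.subset_span ⟨⟨a, ha⟩, (hw2 a ha).symm⟩)
    · rw [Submodule.span_le]
      rintro _ ⟨⟨a, ha⟩, rfl⟩
      refine ⟨?_, ?_⟩
      · rw [← hW]
        exact mem_W u a.2
      · have h5 : u a ∈ Submodule.span F (Set.range w) := by
          rw [← hw2 a ha]
          exact Submodule.subset_span ⟨a, rfl⟩
        exact h5
  rw [h3, h4, hj]
  have h5 := finrank_span_eq_card (R := F) (hu.li.comp (fun l : {l : Fin j // ¬ (l : ℕ) < i} => l.1)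
    Subtype.val_injective)
  refine h5.trans ?_
  have h6 : Fintype.card {l : Fin j // (l : ℕ) < i} = i := by
    have e : {l : Fin j // (l : ℕ) < i} ≃ Fin i :=
      ⟨fun l => ⟨l.1, l.2⟩, fun l => ⟨⟨l, lt_of_lt_of_le l.2 (hj ▸ hi)⟩, l.2⟩, fun _ => rfl, fun _ => rfl⟩
    rw [Fintype.card_congr e, Fintype.card_fin]
  have h7 := Fintype.card_subtype_compl (fun l : Fin j => (l : ℕ) < i)
  rw [h7, h6, Fintype.card_fin]

/-- a totally isotropic subspace of dimension at least three: rank at least four -/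
theorem four_le [Fintype F] [FiniteDimensional F V] {q : ℕ} (hF : Fintype.card F = q ^ 2) (hB : HForm B)
    {M : Submodule F V} (hM : TI B M) (h3 : 3 ≤ finrank F M) {X : Type*} [Finite X] [MulAction (SIso B) X] (x₀ : X)
    (hK : ∀ g ∈ MulAction.stabilizer (SIso B) x₀, M.map (g.1 : V →ₗ[F] V) = M) :
    4 ≤ Nat.card (MulAction.orbitRel.Quotient (MulAction.stabilizer (SIso B) x₀) X) := by
  classical
  have h : ∀ i : Fin 4, ∃ g : SIso B, finrank F (M ⊓ M.map (g.1 : V →ₗ[F] V) : Submodule F V) = finrank F M - i :=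
    fun i => exists_inter hF hB hM (by omega)
  choose g hg using h
  have : Finite (MulAction.orbitRel.Quotient (MulAction.stabilizer (SIso B) x₀) X) := Quotient.finite _
  let f : Fin 4 → MulAction.orbitRel.Quotient (MulAction.stabilizer (SIso B) x₀) X := fun i => Quotient.mk'' (g i • x₀)
  have hmul : ∀ (a b : SIso B) (C : Submodule F V),
      C.map ((a * b).1 : V →ₗ[F] V) = (C.map (b.1 : V →ₗ[F] V)).map (a.1 : V →ₗ[F] V) := by
    intro a b C
    rw [← Submodule.map_comp]
    rfl
  have hf : Function.Injective f := by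
    intro i l e
    have h1 : g i • x₀ ∈ MulAction.orbit (MulAction.stabilizer (SIso B) x₀) (g l • x₀) := Quotient.exact' e
    obtain ⟨⟨k, hk⟩, h2⟩ := h1
    have h4 : k • g l • x₀ = g i • x₀ := h2
    have h5 : (g i)⁻¹ * (k * g l) ∈ MulAction.stabilizer (SIso B) x₀ := by
      rw [MulAction.mem_stabilizer_iff, mul_smul, mul_smul, h4, inv_smul_smul]
    have h6 := hK _ h5
    have h7 : M.map ((k * g l).1 : V →ₗ[F] V) = M.map ((g i).1 : V →ₗ[F] V) := by
      conv_rhs => rw [← h6]
      rw [← hmul, mul_inv_cancel_left]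
    rw [hmul] at h7
    have h8 : M ⊓ M.map ((g i).1 : V →ₗ[F] V) =
        (M ⊓ M.map ((g l).1 : V →ₗ[F] V)).map (k.1 : V →ₗ[F] V) := by
      rw [Submodule.map_inf _ k.1.injective, hK k hk, h7]
    have h9 := hg i
    rw [h8, LinearEquiv.finrank_map_eq, hg l] at h9
    exact Fin.ext (by omega)
  have h1 := Nat.card_le_card_of_injective f hf
  rwa [Nat.card_eq_fintype_card (α := Fin 4), Fintype.card_fin] at h1

/-- **the parabolic case** -/
theorem par_main [Fintype F] [FiniteDimensional F V] {q : ℕ} (hF : Fintype.card F = q ^ 2) (hB : HForm B)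
    (hn : 6 ≤ finrank F V) {X : Type*} [Fintype X] [MulAction (SIso B) X] [MulAction.IsPretransitive (SIso B) X]
    (x₀ : X) (h3 : Nat.card (MulAction.orbitRel.Quotient (MulAction.stabilizer (SIso B) x₀) X) ≤ 3)
    {M : Submodule F V} (hM : TI B M) (hM0 : M ≠ ⊥)
    (hK : ∀ g ∈ MulAction.stabilizer (SIso B) x₀, M.map (g.1 : V →ₗ[F] V) = M) :
    Fintype.card X * (q ^ 2 - 1) = isoNum q (finrank F V) := by
  by_cases hd : 2 * finrank F M + 2 ≤ finrank F V
  swap
  · have := four_le hF hB hM (by omega) x₀ hK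
    omega
  obtain ⟨x, hx, hx0⟩ := Submodule.exists_mem_ne_zero_of_ne_bot hM0
  obtain ⟨z, hz, hzM, hzz⟩ := exists_iso_perp hB hd
  obtain ⟨y, hyy, hxy⟩ := exists_hyp hB hx0 (hM x hx x hx)
  have hmem : ∀ g ∈ MulAction.stabilizer (SIso B) x₀, ∀ v, g • v ∈ M ↔ v ∈ M := by
    intro g hg v
    conv_lhs => rw [← hK g hg]
    constructor
    · rintro ⟨w, hw, e⟩
      rwa [← g.1.injective e]
    · exact fun h => ⟨v, h, rfl⟩
  have hperp : ∀ g ∈ MulAction.stabilizer (SIso B) x₀, ∀ v, g • v ∈ perp B M ↔ v ∈ perp B M := by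
    intro g hg v
    constructor
    · intro h w hw
      rw [← B_smul g]
      exact h _ ((hmem g hg w).2 hw)
    · intro h w hw
      have h1 : g⁻¹ • w ∈ M := (hmem g⁻¹ (inv_mem hg) w).2 hw
      have h2 := h _ h1
      rwa [← B_smul g, smul_inv_smul] at h2
  have hsm : ∀ (C : Submodule F V) (v w : V) (c : F), v ≠ 0 → v = c • w → (v ∈ C ↔ w ∈ C) := by
    rintro C v w c hv rfl
    have hc : c ≠ 0 := by rintro rfl; exact hv (zero_smul F w)
    exact Submodule.smul_mem_iff C hc
  have hxM : x ∈ perp B M := ti_le_perp hM hx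
  have hyM : y ∉ perp B M := fun h => by
    have := hB.swap_zero (h x hx)
    rw [hxy] at this
    exact one_ne_zero this
  have hz0 : z ≠ 0 := fun e => hzM (e ▸ M.zero_mem)
  have hy0 : y ≠ 0 := fun e => hyM (e ▸ (perp B M).zero_mem)
  have hyM' : y ∉ M := fun h => hyM (ti_le_perp hM h)
  let v : Fin 3 → V := ![x, z, y]
  have hv : ∀ i, v i ≠ 0 := by
    intro i
    fin_cases i
    · exact hx0
    · exact hz0
    · exact hy0
  refine card_of_three hF hB hn x₀ h3 (v := v) hv ?_ ?_
  · intro i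
    fin_cases i
    · exact hM x hx x hx
    · exact hzz
    · exact hyy
  · rintro i l ⟨g, hg, c, e⟩
    have hne : g • v i ≠ 0 := (smul_ne_zero_iff_ne g).2 (hv i)
    have h1 : v i ∈ M ↔ v l ∈ M := (hmem g hg _).symm.trans (hsm M _ _ c hne e)
    have h2 : v i ∈ perp B M ↔ v l ∈ perp B M := (hperp g hg _).symm.trans (hsm _ _ _ c hne e)
    fin_cases i <;> fin_cases l
    · rfl
    · exact absurd (h1.1 hx) hzM
    · exact absurd (h1.1 hx) hyM'
    · exact absurd (h1.2 hx) hzM
    · rfl
    · exact absurd (h2.1 hz) hyM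
    · exact absurd (h1.2 hx) hyM'
    · exact absurd (h2.2 hz) hyM
    · rfl

end Cfsg.Agent.H450.UF
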